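import Mathlib
import Cfsg.Prelude.Def_Local

/-!
# S2929 packages (helper38)

`H ≤ Sym(n)` contains a Sylow `3`-subgroup of `Sym(n)` and `F*(H)` is quasisimple: then `F*(H)` is
the alternating group on one orbit of the group generated by the `3`-cycles of `H`.

Each package is a `Prop`; package `X` is proved as `theorem lemX : LemX` (see the notes, topic S2929).
-/

set_option autoImplicit false

namespace Cfsg.Agent.Lib.Helper38.Alt3

universe u

/-- `QS H L`: the working form of "`L = F*(H)` is quasisimple": `L ≤ H` is normalized by `H`,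
contains its centralizer in `H`, is perfect and nontrivial, and every subgroup of `L` normalized
by `L` is `L` or central in `L`. -/
structure QS {G : Type u} [Group G] (H L : Subgroup G) : Prop where
  le : L ≤ H
  norm : ∀ h ∈ H, ∀ l ∈ L, h * l * h⁻¹ ∈ L
  cent : ∀ h ∈ H, (∀ l ∈ L, h * l = l * h) → h ∈ L
  perf : ∀ S : Subgroup G, (∀ a ∈ L, ∀ b ∈ L, a * b * a⁻¹ * b⁻¹ ∈ S) → L ≤ S
  simp : ∀ M : Subgroup G, M ≤ L → (∀ l ∈ L, ∀ m ∈ M, l * m * l⁻¹ ∈ M) →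
    M = L ∨ ∀ m ∈ M, ∀ l ∈ L, m * l = l * m
  ne : L ≠ ⊥

/-- The even permutations of `Fin n` fixing every point outside `O`. -/
def altOn (n : ℕ) (O : Set (Fin n)) : Subgroup (Equiv.Perm (Fin n)) where
  carrier := {g | Equiv.Perm.sign g = 1 ∧ ∀ x, x ∉ O → g x = x}
  one_mem' := ⟨map_one _, fun _ _ => rfl⟩
  mul_mem' := by
    rintro a b ⟨ha, ha2⟩ ⟨hb, hb2⟩
    refine ⟨by rw [map_mul, ha, hb, mul_one], fun x hx => ?_⟩
    rw [Equiv.Perm.mul_apply, hb2 x hx, ha2 x hx]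
  inv_mem' := by
    rintro a ⟨ha, ha2⟩
    refine ⟨by rw [map_inv, ha, inv_one], fun x hx => ?_⟩
    rw [Equiv.Perm.inv_eq_iff_eq]; exact (ha2 x hx).symm

theorem mem_altOn {n : ℕ} {O : Set (Fin n)} {g : Equiv.Perm (Fin n)} :
    g ∈ altOn n O ↔ Equiv.Perm.sign g = 1 ∧ ∀ x, x ∉ O → g x = x := Iff.rfl

/-- The orbit of `x` under the group generated by `T`. -/
def orb (n : ℕ) (T : Set (Equiv.Perm (Fin n))) (x : Fin n) : Set (Fin n) :=
  {y | ∃ g ∈ Subgroup.closure T, g x = y}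

theorem mem_orb {n : ℕ} {T : Set (Equiv.Perm (Fin n))} {x y : Fin n} :
    y ∈ orb n T x ↔ ∃ g ∈ Subgroup.closure T, g x = y := Iff.rfl

theorem self_mem_orb {n : ℕ} (T : Set (Equiv.Perm (Fin n))) (x : Fin n) : x ∈ orb n T x :=
  ⟨1, Subgroup.one_mem _, rfl⟩

/-- the orbit is invariant under the group -/
theorem orb_invariant {n : ℕ} {T : Set (Equiv.Perm (Fin n))} {x : Fin n} {g : Equiv.Perm (Fin n)}
    (hg : g ∈ Subgroup.closure T) (y : Fin n) : y ∈ orb n T x ↔ g y ∈ orb n T x := by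
  constructor
  · rintro ⟨k, hk, rfl⟩
    exact ⟨g * k, Subgroup.mul_mem _ hg hk, rfl⟩
  · rintro ⟨k, hk, hky⟩
    refine ⟨g⁻¹ * k, Subgroup.mul_mem _ (Subgroup.inv_mem _ hg) hk, ?_⟩
    rw [Equiv.Perm.mul_apply, hky]
    simp

/-- conjugation by a permutation preserving `O` preserves `altOn n O` -/
theorem altOn_conj {n : ℕ} {O : Set (Fin n)} {g a : Equiv.Perm (Fin n)}
    (hg : ∀ y, y ∈ O ↔ g y ∈ O) (ha : a ∈ altOn n O) : g * a * g⁻¹ ∈ altOn n O := by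
  refine ⟨?_, fun x hx => ?_⟩
  · rw [map_mul, map_mul, map_inv, ha.1, mul_one, mul_inv_cancel]
  · have h1 : g⁻¹ x ∉ O := by
      intro hc
      apply hx
      have h2 := (hg (g⁻¹ x)).mp hc
      simpa using h2
    rw [Equiv.Perm.mul_apply, Equiv.Perm.mul_apply, ha.2 _ h1]
    simp

/-- a `3`-cycle of `T` moving `x` is an even permutation supported in the orbit of `x` -/
theorem threeCycle_mem_altOn {n : ℕ} {T : Set (Equiv.Perm (Fin n))} {c : Equiv.Perm (Fin n)}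
    {x : Fin n} (hc : c ∈ T) (h3 : c.IsThreeCycle) (hx : c x ≠ x) : c ∈ altOn n (orb n T x) := by
  refine ⟨h3.sign, fun y hy => ?_⟩
  by_contra hcy
  obtain ⟨i, hi⟩ := h3.isCycle.exists_pow_eq hx hcy
  exact hy ⟨c ^ i, Subgroup.pow_mem _ (Subgroup.subset_closure hc) i, hi⟩

/-! ## The packages -/

/-- (F) `F*(H)` quasisimple gives `QS H F*(H)` (inside the ambient group). -/
def LemF : Prop :=
  ∀ {G : Type u} [Group G] [Finite G] (H : Subgroup G),
    Cfsg.IsQuasisimple ↥(Cfsg.generalizedFittingSubgroup ↥H) →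
    QS H ((Cfsg.generalizedFittingSubgroup ↥H).map H.subtype)

/-- (Q) the dichotomy for subgroups of `H` normalized by `L`. -/
def LemQ : Prop :=
  ∀ {G : Type u} [Group G] (H L : Subgroup G), QS H L →
    ∀ M : Subgroup G, M ≤ H → (∀ l ∈ L, ∀ m ∈ M, l * m * l⁻¹ ∈ M) →
      L ≤ M ∨ (M ≤ L ∧ ∀ m ∈ M, ∀ l ∈ L, m * l = l * m)

/-- (P) a perfect group centralizing a `3`-cycle fixes its support pointwise. -/
def LemP : Prop :=
  ∀ (n : ℕ) (L : Subgroup (Equiv.Perm (Fin n))) (c : Equiv.Perm (Fin n)),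
    (∀ S : Subgroup (Equiv.Perm (Fin n)), (∀ a ∈ L, ∀ b ∈ L, a * b * a⁻¹ * b⁻¹ ∈ S) → L ≤ S) →
    c.IsThreeCycle → (∀ l ∈ L, c * l = l * c) → ∀ l ∈ L, ∀ x, c x ≠ x → l x = x

/-- (J) a transitive group generated by `3`-cycles is the alternating group. -/
def LemJ : Prop :=
  ∀ (α : Type) [Fintype α] [DecidableEq α] (T : Set (Equiv.Perm α)),
    (∀ t ∈ T, t.IsThreeCycle) → (∀ x y : α, ∃ g ∈ Subgroup.closure T, g x = y) →
    Subgroup.closure T = alternatingGroup α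

/-- (O) the group generated by a set `T` of `3`-cycles contains every even permutation supported
in the orbit of a point moved by some member of `T`. -/
def LemO : Prop :=
  ∀ (n : ℕ) (T : Set (Equiv.Perm (Fin n))), (∀ t ∈ T, t.IsThreeCycle) →
    ∀ (c : Equiv.Perm (Fin n)) (x : Fin n), c ∈ T → c x ≠ x →
      altOn n (orb n T x) ≤ Subgroup.closure T

/-- (A1) `altOn n O` is an alternating group of degree `|O|`. -/
def LemAIso : Prop :=
  ∀ (n : ℕ) (O : Set (Fin n)) (m : ℕ), Nat.card O = m →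
    Nonempty (↥(altOn n O) ≃* ↥(alternatingGroup (Fin m)))

/-- (A2) `altOn n O` is simple for `|O| ≥ 5`. -/
def LemASimple : Prop :=
  ∀ (n : ℕ) (O : Set (Fin n)), 5 ≤ Nat.card O →
    ∀ M : Subgroup (Equiv.Perm (Fin n)), M ≤ altOn n O →
      (∀ a ∈ altOn n O, ∀ m ∈ M, a * m * a⁻¹ ∈ M) → M = ⊥ ∨ M = altOn n O

/-- (A3) `altOn n O` has no nontrivial perfect subgroup for `|O| ≤ 4`. -/
def LemASolv : Prop :=
  ∀ (n : ℕ) (O : Set (Fin n)), Nat.card O ≤ 4 →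
    ∀ M : Subgroup (Equiv.Perm (Fin n)), M ≤ altOn n O →
      (∀ S : Subgroup (Equiv.Perm (Fin n)), (∀ a ∈ M, ∀ b ∈ M, a * b * a⁻¹ * b⁻¹ ∈ S) → M ≤ S) →
      M = ⊥

/-- (S) a group containing a Sylow `3`-subgroup of `Sym(n)` has `3`-cycles moving at least
`n - 2` points. -/
def LemS : Prop :=
  ∀ (n : ℕ) (H : Subgroup (Equiv.Perm (Fin n))),
    (∃ P : Sylow 3 (Equiv.Perm (Fin n)), (P : Subgroup (Equiv.Perm (Fin n))) ≤ H) →
    ∃ S : Finset (Fin n), n - 2 ≤ S.card ∧ ∀ x ∈ S, ∃ c ∈ H, c.IsThreeCycle ∧ c x ≠ x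

/-- The statement of S2929. -/
def S2929Stmt : Prop :=
  ∀ (n : ℕ) (_hn : 5 ≤ n) (H : Subgroup (Equiv.Perm (Fin n)))
    (_hF : Cfsg.IsQuasisimple ↥(Cfsg.generalizedFittingSubgroup ↥H))
    (_hS : ∃ P : Sylow 3 (Equiv.Perm (Fin n)), (P : Subgroup (Equiv.Perm (Fin n))) ≤ H),
    ∃ m : ℕ, (m = n - 2 ∨ m = n - 1 ∨ m = n) ∧
      Nonempty (↥(Cfsg.generalizedFittingSubgroup ↥H) ≃* ↥(alternatingGroup (Fin m)))

end Cfsg.Agent.Lib.Helper38.Alt3
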