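import Mathlib
import Cfsg.Agent.Lib.Helper38.Alt3.Defs

/-!
# S2929 package [P]: a perfect group centralizing a `3`-cycle fixes its support pointwise.
-/

set_option autoImplicit false

namespace Cfsg.Agent.Lib.Helper38.Alt3

theorem lemP : LemP := by
  intro n L c hperf hc3 hcent l hl x hx
  have hpow : ∀ a ∈ L, ∀ (k : ℤ) (y : Fin n), a ((c ^ k) y) = (c ^ k) (a y) := by
    intro a ha k y
    have hcm : Commute c a := hcent a ha
    have h1 := (hcm.zpow_left k).eq
    have h2 := congrArg (fun f : Equiv.Perm (Fin n) => f y) h1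
    simp only [Equiv.Perm.mul_apply] at h2
    exact h2.symm
  have hex : ∀ a ∈ L, ∃ i : ℤ, a x = (c ^ i) x := by
    intro a ha
    have hax : c (a x) ≠ a x := by
      intro h
      apply hx
      have h2 := congrArg (fun f : Equiv.Perm (Fin n) => f x) (hcent a ha)
      simp only [Equiv.Perm.mul_apply] at h2
      rw [h] at h2
      exact (a.injective h2).symm
    obtain ⟨i, hi⟩ := hc3.isCycle.exists_zpow_eq hx hax
    exact ⟨i, hi.symm⟩
  have hmerge : ∀ (p q : ℤ) (y : Fin n), (c ^ p) ((c ^ q) y) = (c ^ (p + q)) y := by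
    intro p q y
    rw [← Equiv.Perm.mul_apply, ← zpow_add]
  have hinv : ∀ a ∈ L, ∀ i : ℤ, a x = (c ^ i) x → a⁻¹ x = (c ^ (-i)) x := by
    intro a ha i hi
    rw [Equiv.Perm.inv_eq_iff_eq, hpow a ha, hi, hmerge]
    simp
  have hle : L ≤ MulAction.stabilizer (Equiv.Perm (Fin n)) x := by
    apply hperf
    intro a ha b hb
    rw [MulAction.mem_stabilizer_iff]
    obtain ⟨i, hi⟩ := hex a ha
    obtain ⟨j, hj⟩ := hex b hb
    have hb' := hinv b hb j hj
    have ha' := hinv a ha i hi
    show (a * b * a⁻¹ * b⁻¹) x = x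
    simp only [Equiv.Perm.mul_apply]
    rw [hb', hpow a⁻¹ (L.inv_mem ha), ha', hmerge, hpow b hb, hj, hmerge, hpow a ha, hi, hmerge]
    have e : -j + -i + j + i = 0 := by ring
    rw [e, zpow_zero, Equiv.Perm.one_apply]
  have h := hle hl
  rw [MulAction.mem_stabilizer_iff] at h
  exact h

end Cfsg.Agent.Lib.Helper38.Alt3
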