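import Mathlib
import Cfsg.Agent.Lib.Helper38.Alt3.Defs

/-!
# S2929 package [Q]: the dichotomy for subgroups normalized by a quasisimple `F*`.
-/

set_option autoImplicit false

namespace Cfsg.Agent.Lib.Helper38.Alt3

universe u

theorem lemQ : LemQ.{u} := by
  intro G _ H L qs M hMH hnorm
  -- `D = M ⊓ L`
  have hD : M ⊓ L = L ∨ ∀ m ∈ M ⊓ L, ∀ l ∈ L, m * l = l * m := by
    apply qs.simp (M ⊓ L) inf_le_right
    intro l hl m hm
    exact ⟨hnorm l hl m hm.1, L.mul_mem (L.mul_mem hl hm.2) (L.inv_mem hl)⟩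
  rcases hD with hD | hD
  · left
    rw [← hD]; exact inf_le_left
  · right
    -- every `m ∈ M` centralizes `L`
    have hcen : ∀ m ∈ M, ∀ l ∈ L, m * l = l * m := by
      intro m hm
      -- `φ l = m * l * m⁻¹ * l⁻¹ ∈ M ⊓ L`
      have hφ : ∀ l ∈ L, m * l * m⁻¹ * l⁻¹ ∈ M ⊓ L := by
        intro l hl
        refine ⟨?_, L.mul_mem (qs.norm m (hMH hm) l hl) (L.inv_mem hl)⟩
        have h1 : l * m⁻¹ * l⁻¹ ∈ M := hnorm l hl m⁻¹ (M.inv_mem hm)
        have e : m * l * m⁻¹ * l⁻¹ = m * (l * m⁻¹ * l⁻¹) := by group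
        rw [e]; exact M.mul_mem hm h1
      have hφmul : ∀ a ∈ L, ∀ b ∈ L,
          m * (a * b) * m⁻¹ * (a * b)⁻¹ = (m * a * m⁻¹ * a⁻¹) * (m * b * m⁻¹ * b⁻¹) := by
        intro a ha b hb
        have hc := hD _ (hφ b hb) a⁻¹ (L.inv_mem ha)
        calc m * (a * b) * m⁻¹ * (a * b)⁻¹
            = (m * a * m⁻¹) * ((m * b * m⁻¹ * b⁻¹) * a⁻¹) := by group
          _ = (m * a * m⁻¹) * (a⁻¹ * (m * b * m⁻¹ * b⁻¹)) := by rw [hc]
          _ = (m * a * m⁻¹ * a⁻¹) * (m * b * m⁻¹ * b⁻¹) := by group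
      -- the set of `l ∈ L` with `φ l = 1`, i.e. commuting with `m`, contains the commutators
      have hLle : L ≤ Subgroup.centralizer ({m} : Set G) := by
        apply qs.perf
        intro a ha b hb
        rw [Subgroup.mem_centralizer_iff]
        intro h hh
        rw [Set.mem_singleton_iff] at hh
        subst hh
        -- `φ (a b a⁻¹ b⁻¹) = 1`
        have hai := L.inv_mem ha
        have hbi := L.inv_mem hb
        have hab : a * b ∈ L := L.mul_mem ha hb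
        have haibi : a⁻¹ * b⁻¹ ∈ L := L.mul_mem hai hbi
        have e1 := hφmul (a * b) hab (a⁻¹ * b⁻¹) haibi
        have e2 := hφmul a ha b hb
        have e3 := hφmul a⁻¹ hai b⁻¹ hbi
        -- `φ a⁻¹ = (φ a)⁻¹`, `φ b⁻¹ = (φ b)⁻¹` from multiplicativity
        have e4 := hφmul a ha a⁻¹ hai
        have e5 := hφmul b hb b⁻¹ hbi
        have e4' : (h * a * h⁻¹ * a⁻¹) * (h * a⁻¹ * h⁻¹ * a⁻¹⁻¹) = 1 := by
          rw [← e4]; group
        have e5' : (h * b * h⁻¹ * b⁻¹) * (h * b⁻¹ * h⁻¹ * b⁻¹⁻¹) = 1 := by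
          rw [← e5]; group
        -- commutativity of the values
        have hcomm : (h * a * h⁻¹ * a⁻¹) * (h * b * h⁻¹ * b⁻¹)
            = (h * b * h⁻¹ * b⁻¹) * (h * a * h⁻¹ * a⁻¹) :=
          hD _ (hφ a ha) _ (hφ b hb).2
        have hone : h * (a * b * (a⁻¹ * b⁻¹)) * h⁻¹ * (a * b * (a⁻¹ * b⁻¹))⁻¹ = 1 := by
          rw [e1, e2, e3]
          have ia : h * a⁻¹ * h⁻¹ * a⁻¹⁻¹ = (h * a * h⁻¹ * a⁻¹)⁻¹ :=
            (eq_inv_of_mul_eq_one_right e4')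
          have ib : h * b⁻¹ * h⁻¹ * b⁻¹⁻¹ = (h * b * h⁻¹ * b⁻¹)⁻¹ :=
            (eq_inv_of_mul_eq_one_right e5')
          rw [ia, ib, hcomm]
          group
        have hfin : h * (a * b * a⁻¹ * b⁻¹) * h⁻¹ * (a * b * a⁻¹ * b⁻¹)⁻¹ = 1 := by
          have e : a * b * a⁻¹ * b⁻¹ = a * b * (a⁻¹ * b⁻¹) := by group
          rw [e]; exact hone
        calc h * (a * b * a⁻¹ * b⁻¹)
            = (h * (a * b * a⁻¹ * b⁻¹) * h⁻¹ * (a * b * a⁻¹ * b⁻¹)⁻¹) * (a * b * a⁻¹ * b⁻¹) * h := by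
              group
          _ = (a * b * a⁻¹ * b⁻¹) * h := by rw [hfin, one_mul]
      intro l hl
      have := Subgroup.mem_centralizer_iff.mp (hLle hl) m rfl
      exact this
    refine ⟨fun m hm => qs.cent m (hMH hm) (hcen m hm), hcen⟩

end Cfsg.Agent.Lib.Helper38.Alt3
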