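import Mathlib
import Cfsg.Agent.Lib.Helper38.Alt3.Defs

/-!
# S2929: assembly from the packages (helper38)
-/

set_option autoImplicit false

namespace Cfsg.Agent.Lib.Helper38.Alt3

open Equiv

/-- S2929 from the packages. -/
theorem s2929_of (hF : LemF.{0}) (hQ : LemQ.{0}) (hP : LemP) (hO : LemO) (hA1 : LemAIso)
    (hA2 : LemASimple) (hA3 : LemASolv) (hS : LemS) : S2929Stmt := by
  intro n hn H hQSim hSyl
  classical
  obtain ⟨S, hScard, hSmov⟩ := hS n H hSyl
  have qs := hF H hQSim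
  obtain ⟨L, hL⟩ : ∃ L : Subgroup (Perm (Fin n)),
      L = (Cfsg.generalizedFittingSubgroup ↥H).map H.subtype := ⟨_, rfl⟩
  rw [← hL] at qs
  -- the `3`-cycles of `H` and the group they generate
  obtain ⟨T, hT⟩ : ∃ T : Set (Perm (Fin n)), T = {t | t ∈ H ∧ t.IsThreeCycle} := ⟨_, rfl⟩
  have hTmem : ∀ t, t ∈ T ↔ t ∈ H ∧ t.IsThreeCycle := fun t => by rw [hT]; rfl
  have hT3 : ∀ t ∈ T, t.IsThreeCycle := fun t ht => ((hTmem t).mp ht).2
  have hNH : Subgroup.closure T ≤ H :=
    (Subgroup.closure_le H).mpr (fun t ht => ((hTmem t).mp ht).1)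
  have hNnorm : ∀ h ∈ H, ∀ g ∈ Subgroup.closure T, h * g * h⁻¹ ∈ Subgroup.closure T := by
    intro h hh g hg
    have hle : (Subgroup.closure T).map (MulAut.conj h).toMonoidHom ≤ Subgroup.closure T := by
      rw [MonoidHom.map_closure, Subgroup.closure_le]
      rintro _ ⟨t, ht, rfl⟩
      apply Subgroup.subset_closure
      have ht' := (hTmem t).mp ht
      rw [hTmem]
      refine ⟨H.mul_mem (H.mul_mem hh ht'.1) (H.inv_mem hh), ?_⟩
      show (h * t * h⁻¹).IsThreeCycle
      unfold Equiv.Perm.IsThreeCycle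
      rw [Equiv.Perm.cycleType_conj]
      exact ht'.2
    exact hle ⟨g, hg, rfl⟩
  have hSne : S.Nonempty := Finset.card_pos.mp (by omega)
  obtain ⟨x₀, hx₀⟩ := hSne
  obtain ⟨c₀, hc₀H, hc₀3, hc₀x⟩ := hSmov x₀ hx₀
  -- key: `L` is the alternating group on the orbit of any point moved by a `3`-cycle of `H`
  have key : ∀ c ∈ T, ∀ x, c x ≠ x → L = altOn n (orb n T x) ∧ 5 ≤ Nat.card (orb n T x) := by
    intro c hc x hx
    have hc3 := hT3 c hc
    have hcO : c ∈ altOn n (orb n T x) := threeCycle_mem_altOn hc hc3 hx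
    have hle : altOn n (orb n T x) ≤ Subgroup.closure T := hO n T hT3 c x hc hx
    have hLN : L ≤ Subgroup.closure T := by
      rcases hQ H L qs (Subgroup.closure T) hNH
        (fun l hl m hm => hNnorm l (qs.le hl) m hm) with h | ⟨h1, h2⟩
      · exact h
      · exfalso
        have hcN : c ∈ Subgroup.closure T := Subgroup.subset_closure hc
        exact hx (hP n L c qs.perf hc3 (fun l hl => h2 c hcN l hl) c (h1 hcN) x hx)
    have hnormO : ∀ l ∈ L, ∀ a ∈ altOn n (orb n T x), l * a * l⁻¹ ∈ altOn n (orb n T x) :=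
      fun l hl a ha => altOn_conj (orb_invariant (hLN hl)) ha
    rcases hQ H L qs (altOn n (orb n T x)) (hle.trans hNH) hnormO with h | ⟨h1, h2⟩
    · by_cases h5 : 5 ≤ Nat.card (orb n T x)
      · refine ⟨?_, h5⟩
        rcases hA2 n _ h5 L h (fun a ha m hm => qs.norm a (hNH (hle ha)) m hm) with hb | he
        · exact absurd hb qs.ne
        · exact he
      · exfalso
        exact qs.ne (hA3 n _ (by omega) L h qs.perf)
    · exfalso
      exact hx (hP n L c qs.perf hc3 (fun l hl => h2 c hcO l hl) c (h1 hcO) x hx)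
  have hc₀T : c₀ ∈ T := (hTmem c₀).mpr ⟨hc₀H, hc₀3⟩
  obtain ⟨hLO, -⟩ := key c₀ hc₀T x₀ hc₀x
  have hSO : ∀ y ∈ S, y ∈ orb n T x₀ := by
    intro y hy
    obtain ⟨c, hcH, hc3, hcy⟩ := hSmov y hy
    have hcT : c ∈ T := (hTmem c).mpr ⟨hcH, hc3⟩
    obtain ⟨hLO', -⟩ := key c hcT y hcy
    have hc' : c ∈ altOn n (orb n T x₀) := by
      rw [← hLO, hLO']
      exact threeCycle_mem_altOn hcT hc3 hcy
    by_contra hny
    exact hcy (hc'.2 y hny)
  have hm1 : n - 2 ≤ Nat.card (orb n T x₀) := by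
    have h1 : (S : Set (Fin n)).ncard ≤ (orb n T x₀).ncard :=
      Set.ncard_le_ncard (fun y hy => hSO y hy) (Set.toFinite _)
    rw [Set.ncard_coe_finset] at h1
    rw [Nat.card_coe_set_eq]
    omega
  have hm2 : Nat.card (orb n T x₀) ≤ n := by
    have h1 : Nat.card (orb n T x₀) ≤ Nat.card (Fin n) :=
      Nat.card_le_card_of_injective _ Subtype.val_injective
    simpa using h1
  refine ⟨Nat.card (orb n T x₀), by omega, ?_⟩
  obtain ⟨e⟩ := hA1 n (orb n T x₀) _ rfl
  have e0 : ↥(Cfsg.generalizedFittingSubgroup ↥H) ≃*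
      ↥((Cfsg.generalizedFittingSubgroup ↥H).map H.subtype) :=
    Subgroup.equivMapOfInjective _ H.subtype H.subtype_injective
  have hEq : (Cfsg.generalizedFittingSubgroup ↥H).map H.subtype = altOn n (orb n T x₀) := by
    rw [← hL]; exact hLO
  exact ⟨e0.trans ((MulEquiv.subgroupCongr hEq).trans e)⟩

end Cfsg.Agent.Lib.Helper38.Alt3
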